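import Cfsg.Agent.E7P.Frm.Lev
import Cfsg.Agent.H757.GrpLemmas

/-!
# S5932: semisimple elements and frames (helper32)

* `exists_conj_T`, `exists_conj_T_Pl`, `exists_conj_T_two` : semisimple elements are conjugate into the torus;
* `conj_T_nL` : conjugacy in the torus is controlled by the Weyl group;
* `Sit.exists_frame`, `Frame.mem`, `Frame.β'` ...
-/

set_option autoImplicit false
set_option maxRecDepth 100000

namespace Cfsg.Agent.E7P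

open Cfsg Cfsg.Lie Matrix Module
open Cfsg.Agent.H943.E7V.Block (D1 rho)
open Cfsg.Agent.R2.T1 Cfsg.Agent.E7P.Kf
open Cfsg.Agent.BpExc.TorAll (HAlg)
open Cfsg.Agent.H943.SL2Rel (u w h)

universe u v

namespace Kf

variable {K : Type u} [Field K]

theorem finite_Gh [Finite K] : Finite (Gh K) := Finite.of_injective _ (rho_injective (K := K))

theorem finite_closure [IsAlgClosed K] {p : ℕ} (hp : p.Prime) [CharP K p] (hA : HAlg p K) {S : Set (Gh K)}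
    (hS : S.Finite) : Finite (Subgroup.closure S) := by
  have : Fact p.Prime := ⟨hp⟩
  obtain ⟨N, hN, h1⟩ := exists_fin hA hS
  have := finite_fixF (K := K) p hN
  have := finite_Gh (K := fixF (K := K) p N)
  have h2 : Subgroup.closure S ≤ (emb (fixF (K := K) p N).subtype).range := (Subgroup.closure_le _).2 h1
  exact (Set.finite_range (emb (fixF (K := K) p N).subtype)).subset h2

theorem coprime_of_cast {p N : ℕ} (hp : p.Prime) [CharP K p] (hN : (N : K) ≠ 0) : N.Coprime p :=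
  (hp.coprime_iff_not_dvd.2 fun h => hN ((CharP.cast_eq_zero_iff K p N).2 h)).symm

/-- **semisimple elements are toral** -/
theorem exists_conj_T [IsAlgClosed K] {p : ℕ} (hp : p.Prime) [CharP K p] (hA : HAlg p K) {y : Gh K} {N : ℕ}
    (hN : (N : K) ≠ 0) (hy : y ^ N = 1) : ∃ g t, y = g * Phi K t * g⁻¹ := by
  have : Fact p.Prime := ⟨hp⟩
  obtain ⟨g, c, h1, -⟩ := frameK p hA (by rintro rfl; exact hN Nat.cast_zero) (coprime_of_cast hp hN) hy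
  exact ⟨g⁻¹, c, by rw [h1]; group⟩

theorem conj_of_coset [IsAlgClosed K] {p : ℕ} (hp : p.Prime) [CharP K p] (hA : HAlg p K) {Q : Subgroup (Gh K)}
    (hQ : IsPGroup p Q) {x y : Gh K} {N : ℕ} (hN : (N : K) ≠ 0) (hx : x ^ N = 1) (hy : y ^ N = 1)
    (hn : ∀ v ∈ Q, x * v * x⁻¹ ∈ Q) (hxy : y * x⁻¹ ∈ Q) : ∃ v ∈ Q, y = v * x * v⁻¹ := by
  have : Fact p.Prime := ⟨hp⟩
  have := finite_closure hp hA (Set.toFinite {x, y})
  let Γ := Subgroup.closure ({x, y} : Set (Gh K))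
  have hx' : x ∈ Γ := Subgroup.subset_closure (Or.inl rfl)
  have hy' : y ∈ Γ := Subgroup.subset_closure (Or.inr rfl)
  have hc := coprime_of_cast hp hN
  obtain ⟨v, hv, e⟩ := H757.exists_conj_of_coset (G := Γ) (V := Q.subgroupOf Γ)
    (hQ.comap_of_injective _ Γ.subtype_injective) (κ := ⟨x, hx'⟩) (κ₁ := ⟨y, hy'⟩) (fun v hv => hn v hv)
    (Nat.Coprime.coprime_dvd_left (orderOf_dvd_of_pow_eq_one (Subtype.ext hx)) hc)
    (Nat.Coprime.coprime_dvd_left (orderOf_dvd_of_pow_eq_one (Subtype.ext hy)) hc) hxy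
  exact ⟨v, hv, congrArg Subtype.val e⟩

theorem Ul_diag {β : E} {x : Gh K} (hx : x ∈ Ul K β) (i : D1) : rho K x i i = 1 := by
  by_contra hne
  exact lt_irrefl _ (hx.2 i i (by rw [Matrix.sub_apply, one_apply_eq]; exact sub_ne_zero.2 hne))

/-- the toral part is determined by the diagonal -/
theorem Phi_eq_of_mul {β γ : E} {x y : Gh K} (hx : x ∈ Ul K β) (hy : y ∈ Ul K γ) {a b : Fin chevE7.rank → Kˣ}
    (e : x * Phi K a = y * Phi K b) : Phi K a = Phi K b := by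
  apply rho_injective
  have h1 := congrArg (rho K) e
  rw [map_mul, map_mul, rho_Phi, rho_Phi] at h1
  rw [rho_Phi, rho_Phi]
  congr 1
  funext i
  have h2 := congrFun (congrFun h1 i) i
  rwa [mul_diagonal, mul_diagonal, Ul_diag hx, Ul_diag hy, one_mul, one_mul] at h2

theorem mul_Phi_pow {β : E} {x : Gh K} (hx : x ∈ Ul K β) (a : Fin chevE7.rank → Kˣ) (n : ℕ) :
    ∃ x' ∈ Ul K β, (x * Phi K a) ^ n = x' * Phi K (a ^ n) := by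
  induction n with
  | zero => exact ⟨1, one_mem _, by rw [pow_zero, pow_zero, map_one, mul_one]⟩
  | succ n ih =>
    obtain ⟨x', hx', e⟩ := ih
    exact ⟨_, mul_mem hx' (Ul_conj (Phi_mem_Pl β (a ^ n)) hx), by rw [pow_succ, e, pow_succ, map_mul]; group⟩

/-- a semisimple element in the intersection of the Borel subgroup with a parabolic subgroup -/
theorem exists_conj_T_aux [IsAlgClosed K] {p : ℕ} (hp : p.Prime) [CharP K p] (hA : HAlg p K) {y : Gh K} {N : ℕ}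
    (hN : (N : K) ≠ 0) (hy : y ^ N = 1) (h1 : y ∈ Pl K rho1) {β : E} (hβ : Dom β) {x : Gh K}
    (h2 : x⁻¹ * y * x ∈ Pl K β) :
    ∃ g ∈ Pl K rho1, ∃ l t, y = g * Phi K t * g⁻¹ ∧ (g * nL K l)⁻¹ * x ∈ Pl K β := by
  obtain ⟨b, b', l, hb, hb', e⟩ := bruhat x
  have h3 : b⁻¹ * y * b ∈ Pl K (wL l β) := by
    rw [← nL_conj_Pl_iff, show (nL K l)⁻¹ * (b⁻¹ * y * b) * nL K l = b' * (x⁻¹ * y * x) * b'⁻¹ by rw [e]; group]
    exact mul_mem (mul_mem (hb' β hβ) h2) (inv_mem (hb' β hβ))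
  have hb1 := hb _ dom_rho1
  obtain ⟨z, hz, a, e1⟩ := Pl_rho1 (mul_mem (mul_mem (inv_mem hb1) h1) hb1)
  have h4 : (b⁻¹ * y * b) ^ N = 1 := by
    have h5 := conj_pow (a := b⁻¹) (b := y) (i := N)
    rw [inv_inv] at h5
    rw [h5, hy, mul_one, inv_mul_cancel]
  have h5 : Phi K a ^ N = 1 := by
    obtain ⟨z', hz', e2⟩ := mul_Phi_pow hz a N
    rw [← e1, h4] at e2
    rw [← map_pow, ← Phi_eq_of_mul (one_mem (Ul K rho1)) hz' (a := 1) (by rw [map_one, mul_one]; exact e2), map_one]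
  obtain ⟨v, hv, e2⟩ := conj_of_coset hp hA (Q := Ul K rho1 ⊓ Pl K (wL l β)) ((isPGroup_Ul hp rho1).to_le inf_le_left)
    hN h5 h4 (fun v hv => Subgroup.mem_inf.2 ⟨Ul_conj (Phi_mem_Pl _ a) hv.1,
      mul_mem (mul_mem (Phi_mem_Pl _ a) (Subgroup.mem_inf.1 hv).2) (inv_mem (Phi_mem_Pl _ a))⟩)
    (Subgroup.mem_inf.2 ⟨by rw [e1, mul_inv_cancel_right]; exact hz, mul_mem h3 (inv_mem (Phi_mem_Pl _ a))⟩)
  refine ⟨b * v, mul_mem hb1 hv.1.1, l, a, ?_, ?_⟩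
  · rw [show b * v * Phi K a * (b * v)⁻¹ = b * (v * Phi K a * v⁻¹) * b⁻¹ by group, ← e2]; group
  · rw [show (b * v * nL K l)⁻¹ * x = (nL K l)⁻¹ * v⁻¹ * nL K l * b' by rw [e]; group]
    exact mul_mem (nL_conj_Pl' l (inv_mem (Subgroup.mem_inf.1 hv).2)) (hb' β hβ)

theorem exists_conj_T_dom [IsAlgClosed K] {p : ℕ} (hp : p.Prime) [CharP K p] (hA : HAlg p K) {y : Gh K} {N : ℕ}
    (hN : (N : K) ≠ 0) (hy : y ^ N = 1) {β : E} (hβ : Dom β) (h1 : y ∈ Pl K β) :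
    ∃ g ∈ Pl K β, ∃ t, y = g * Phi K t * g⁻¹ := by
  obtain ⟨x, t, e⟩ := exists_conj_T hp hA hN hy
  have h2 : Phi K t ^ N = 1 := by
    have h3 : Phi K t = x⁻¹ * y * x⁻¹⁻¹ := by rw [e]; group
    rw [h3, conj_pow, hy, mul_one, mul_inv_cancel]
  obtain ⟨g, -, l, s, e1, h3⟩ := exists_conj_T_aux hp hA hN h2 (Phi_mem_Pl _ t) hβ (x := x⁻¹)
    (by rw [inv_inv, ← e]; exact h1)
  obtain ⟨s', e2⟩ := nL_conj_Phi' (K := K) l s
  refine ⟨x * (g * nL K l), ?_, s', ?_⟩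
  · have h4 := inv_mem h3
    rwa [_root_.mul_inv_rev, inv_inv, inv_inv] at h4
  · rw [← e2, e, e1]; group

/-- **semisimple elements of a parabolic subgroup** -/
theorem exists_conj_T_Pl [IsAlgClosed K] {p : ℕ} (hp : p.Prime) [CharP K p] (hA : HAlg p K) {y : Gh K} {N : ℕ}
    (hN : (N : K) ≠ 0) (hy : y ^ N = 1) {β : E} (h1 : y ∈ Pl K β) :
    ∃ g ∈ Pl K β, ∃ t, y = g * Phi K t * g⁻¹ := by
  obtain ⟨l, hl⟩ := exists_dom β
  obtain ⟨g, hg, t, e⟩ := exists_conj_T_dom hp hA hN (y := nL K l * y * (nL K l)⁻¹)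
    (by rw [conj_pow, hy, mul_one, mul_inv_cancel]) hl (nL_conj_Pl l h1)
  obtain ⟨s, e2⟩ := nL_conj_Phi' (K := K) l t
  refine ⟨_, nL_conj_Pl' l hg, s, ?_⟩
  rw [← e2, show y = (nL K l)⁻¹ * (nL K l * y * (nL K l)⁻¹) * nL K l by group, e]
  group

/-- **semisimple elements of two parabolic subgroups** -/
theorem exists_conj_T_two [IsAlgClosed K] {p : ℕ} (hp : p.Prime) [CharP K p] (hA : HAlg p K) {y : Gh K} {N : ℕ}
    (hN : (N : K) ≠ 0) (hy : y ^ N = 1) {β γ : E} (hβ : Dom β) (hγ : Dom γ) (h1 : y ∈ Pl K β) {x : Gh K}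
    (h2 : x⁻¹ * y * x ∈ Pl K γ) :
    ∃ g ∈ Pl K β, ∃ l t, y = g * Phi K t * g⁻¹ ∧ (g * nL K l)⁻¹ * x ∈ Pl K γ := by
  obtain ⟨g, hg, t, e⟩ := exists_conj_T_dom hp hA hN hy hβ h1
  have h3 : Phi K t ^ N = 1 := by
    have h3 : Phi K t = g⁻¹ * y * g⁻¹⁻¹ := by rw [e]; group
    rw [h3, conj_pow, hy, mul_one, mul_inv_cancel]
  obtain ⟨g', hg', l, s, e1, h4⟩ := exists_conj_T_aux hp hA hN h3 (Phi_mem_Pl _ t) hγ (x := g⁻¹ * x) (by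
    rw [show (g⁻¹ * x)⁻¹ * Phi K t * (g⁻¹ * x) = x⁻¹ * y * x by rw [e]; group]
    exact h2)
  refine ⟨g * g', mul_mem hg (Pl_rho1_le hβ hg'), l, s, by rw [e, e1]; group, ?_⟩
  rwa [show (g * g' * nL K l)⁻¹ * x = (g' * nL K l)⁻¹ * (g⁻¹ * x) by group]

/-- **conjugacy in the torus is controlled by the Weyl group** -/
theorem conj_T_nL [Infinite K] (g : Gh K) : ∃ l, ∀ a b, g * Phi K a * g⁻¹ = Phi K b →
    nL K l * Phi K a * (nL K l)⁻¹ = Phi K b := by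
  obtain ⟨x, x', l, hx, hx', e⟩ := bruhat g
  refine ⟨l, fun a b hab => ?_⟩
  obtain ⟨z, hz, c, rfl⟩ := Pl_rho1 (hx _ dom_rho1)
  obtain ⟨z', hz', c', rfl⟩ := Pl_rho1 (hx' _ dom_rho1)
  obtain ⟨a', ha'⟩ := nL_conj_Phi (K := K) l a
  have hc : ∀ s t, Phi K s * Phi K t = Phi K t * Phi K s := fun s t => by rw [← map_mul, ← map_mul, mul_comm]
  have h1 : z' * (Phi K a * z'⁻¹ * (Phi K a)⁻¹) ∈ Ul K rho1 := mul_mem hz' (Ul_conj (Phi_mem_Pl _ a) (inv_mem hz'))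
  have h2 : (Phi K c)⁻¹ * (z⁻¹ * (Phi K b * z * (Phi K b)⁻¹)) * (Phi K c)⁻¹⁻¹ ∈ Ul K rho1 :=
    Ul_conj (inv_mem (Phi_mem_Pl _ c)) (mul_mem (inv_mem hz) (Ul_conj (Phi_mem_Pl _ b) hz))
  rw [ha']
  refine Phi_eq_of_mul (nL_conj_Ul l h1) h2 ?_
  calc _ = nL K l * z' * Phi K a * z'⁻¹ * (nL K l)⁻¹ := by rw [← ha']; group
    _ = nL K l * z' * (Phi K c' * Phi K a) * (Phi K c')⁻¹ * z'⁻¹ * (nL K l)⁻¹ := by rw [hc c' a]; group
    _ = (Phi K c)⁻¹ * z⁻¹ * (g * Phi K a * g⁻¹) * z * Phi K c := by rw [e]; group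
    _ = (Phi K c)⁻¹ * z⁻¹ * Phi K b * z * (Phi K b)⁻¹ * (Phi K b * Phi K c) := by rw [hab]; group
    _ = _ := by rw [hc b c]; group

end Kf

namespace Sit

variable {p a b : ℕ} {F : Type u} {K : Type v} {k : Type u} [Field F] [Fintype F] [Field K] [Fintype K] [Field k]
  (S : Sit p a b F K k)

include S in
theorem cast_card : ((Fintype.card K - 1 : ℕ) : k) ≠ 0 := by
  have := S.chark
  rw [Nat.cast_sub Fintype.card_pos, S.cardK, Nat.cast_pow, CharP.cast_eq_zero,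
    zero_pow (by have := S.ha; omega), zero_sub, Nat.cast_one]
  exact neg_ne_zero.2 one_ne_zero

theorem ψ_h_pow (c : Kˣ) : S.ψ (h c) ^ (Fintype.card K - 1) = 1 := by
  classical
  rw [← map_pow, ← H943.SL2Rel.h_pow, ← Fintype.card_units, pow_card_eq_one, H943.SL2Rel.h_one, map_one]

theorem ψ_h_norm (c : Kˣ) {x : Gh k} (hx : x ∈ S.U) : S.ψ (h c) * x * (S.ψ (h c))⁻¹ ∈ S.U := by
  obtain ⟨t, rfl⟩ := hx
  refine ⟨(c : K) ^ 2 * t, ?_⟩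
  rw [← map_inv, ← map_mul, ← map_mul, H943.SL2Rel.h_u, mul_inv_cancel_right]

theorem ψ_h_mem_P (c : Kˣ) : S.ψ (h c) ∈ S.P := S.mem_P_of_norm fun x hx => by
  have h1 := S.ψ_h_norm c⁻¹ hx
  rwa [H943.SL2Rel.h_inv, map_inv, inv_inv] at h1

theorem ψ_h_mem_P' (c : Kˣ) : S.ψ (h c) ∈ S.P' := by
  rw [mem_P', mul_assoc, ← map_mul, H943.SL2Rel.h_w, map_mul, inv_mul_cancel_left]
  exact S.ψ_h_mem_P _

theorem ψ_u_mem_P (t : K) : S.ψ (u t) ∈ S.P := S.mem_P.2 (S.mem_Ru.1 (S.U_le_Ru ⟨t, rfl⟩)).1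

/-- **frames exist** -/
theorem exists_frame : Nonempty S.Frame := by
  have := S.closed
  have := S.chark
  obtain ⟨c, hc⟩ := IsCyclic.exists_generator (α := Kˣ)
  obtain ⟨g, hg, l, t, e, h1⟩ := exists_conj_T_two S.prime S.alg S.cast_card (y := S.g0⁻¹ * S.ψ (h c) * S.g0) (by
    have h1 := conj_pow (a := S.g0⁻¹) (b := S.ψ (h c)) (i := Fintype.card K - 1)
    rw [inv_inv] at h1
    rw [h1, S.ψ_h_pow, mul_one, inv_mul_cancel]) S.β_dom S.β_dom (S.mem_P.1 (S.ψ_h_mem_P c))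
    (x := S.g0⁻¹ * S.ψ w * S.g0) (by
      have h1 := S.mem_P.1 (S.mem_P'.1 (S.ψ_h_mem_P' c))
      rwa [show (S.g0⁻¹ * S.ψ w * S.g0)⁻¹ * (S.g0⁻¹ * S.ψ (h c) * S.g0) * (S.g0⁻¹ * S.ψ w * S.g0) =
        S.g0⁻¹ * ((S.ψ w)⁻¹ * S.ψ (h c) * S.ψ w) * S.g0 by group])
  refine ⟨⟨S.g0 * g, l, by rwa [inv_mul_cancel_left], ?_, fun d => ?_⟩⟩
  · rw [show (S.g0 * g * nL k l)⁻¹ * S.ψ w * (S.g0 * g) = (g * nL k l)⁻¹ * (S.g0⁻¹ * S.ψ w * S.g0) * g by group]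
    exact mul_mem h1 hg
  · obtain ⟨n, rfl⟩ := (mem_powers_iff_mem_zpowers.2 (hc d) : d ∈ Submonoid.powers c)
    refine ⟨t ^ n, ?_⟩
    have h2 : S.ψ (h c) = S.g0 * g * Phi k t * (S.g0 * g)⁻¹ := by
      rw [show S.g0 * g * Phi k t * (S.g0 * g)⁻¹ = S.g0 * (g * Phi k t * g⁻¹) * S.g0⁻¹ by group, ← e]; group
    show S.ψ (h (c ^ n)) = _
    rw [H943.SL2Rel.h_pow, map_pow, h2, conj_pow, map_pow]

variable {S}

theorem Frame.mem_P (f : S.Frame) {y : Gh k} : y ∈ S.P ↔ f.g⁻¹ * y * f.g ∈ Pl k S.β := by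
  rw [S.mem_P, show f.g⁻¹ * y * f.g = (S.g0⁻¹ * f.g)⁻¹ * (S.g0⁻¹ * y * S.g0) * (S.g0⁻¹ * f.g) by group,
    mul_mem_cancel_right f.hg, mul_mem_cancel_left (inv_mem f.hg)]

theorem Frame.mem_Ru (f : S.Frame) {y : Gh k} : y ∈ S.Ru ↔ f.g⁻¹ * y * f.g ∈ Ul k S.β := by
  rw [S.mem_Ru]
  constructor
  · intro h1
    have h2 := Ul_conj (inv_mem f.hg) h1
    rwa [show (S.g0⁻¹ * f.g)⁻¹ * (S.g0⁻¹ * y * S.g0) * (S.g0⁻¹ * f.g)⁻¹⁻¹ = f.g⁻¹ * y * f.g by group] at h2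
  · intro h1
    have h2 := Ul_conj f.hg h1
    rwa [show S.g0⁻¹ * f.g * (f.g⁻¹ * y * f.g) * (S.g0⁻¹ * f.g)⁻¹ = S.g0⁻¹ * y * S.g0 by group] at h2

/-- the coweight of `P'` in the frame -/
noncomputable def Frame.β' (f : S.Frame) : E := wL f.l S.β

theorem Frame.mem_P' (f : S.Frame) {y : Gh k} : y ∈ S.P' ↔ f.g⁻¹ * y * f.g ∈ Pl k f.β' := by
  rw [S.mem_P', f.mem_P, Frame.β', ← nL_conj_Pl_iff,
    show f.g⁻¹ * ((S.ψ w)⁻¹ * y * S.ψ w) * f.g = ((f.g * nL k f.l)⁻¹ * S.ψ w * f.g)⁻¹ *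
      ((nL k f.l)⁻¹ * (f.g⁻¹ * y * f.g) * nL k f.l) * ((f.g * nL k f.l)⁻¹ * S.ψ w * f.g) by group,
    mul_mem_cancel_right f.hw, mul_mem_cancel_left (inv_mem f.hw)]

theorem Frame.mem0 (f : S.Frame) (t : Fin chevE7.rank → kˣ) : f.g * Phi k t * f.g⁻¹ ∈ S.P ⊓ S.P' := by
  have e : f.g⁻¹ * (f.g * Phi k t * f.g⁻¹) * f.g = Phi k t := by group
  exact ⟨f.mem_P.2 (by rw [e]; exact Phi_mem_Pl _ t), f.mem_P'.2 (by rw [e]; exact Phi_mem_Pl _ t)⟩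

/-- the torus of the frame lies in `P ⊓ P'` -/
theorem Frame.mem (f : S.Frame) (l : List (Fin 7)) (t : Fin chevE7.rank → kˣ) :
    f.g * nL k l * Phi k t * (f.g * nL k l)⁻¹ ∈ S.P ⊓ S.P' := by
  obtain ⟨s, hs⟩ := nL_conj_Phi (K := k) l t
  rw [show f.g * nL k l * Phi k t * (f.g * nL k l)⁻¹ = f.g * (nL k l * Phi k t * (nL k l)⁻¹) * f.g⁻¹ by group, hs]
  exact f.mem0 s

/-- the filtrations in a frame -/
theorem Frame.mem_Fg (f : S.Frame) {d : ℝ} {x : chevE7.Idx → k} : x ∈ S.Fg d ↔ adM k f.g⁻¹ *ᵥ x ∈ Ge k ac S.β d := by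
  show adM k S.g0⁻¹ *ᵥ x ∈ Ge k ac S.β d ↔ _
  constructor
  · intro h1
    have h2 := wrep_L.Ge_stab (inv_mem f.hg) h1
    rwa [← mulVec_mul, show (S.g0⁻¹ * f.g)⁻¹ * S.g0⁻¹ = f.g⁻¹ by group] at h2
  · intro h1
    have h2 := wrep_L.Ge_stab f.hg h1
    rwa [← mulVec_mul, mul_inv_cancel_right] at h2

theorem Frame.mem_FV (f : S.Frame) {d : ℝ} {x : D1 → k} : x ∈ S.FV d ↔ rho k f.g⁻¹ *ᵥ x ∈ Ge k wc S.β d := by
  show rho k S.g0⁻¹ *ᵥ x ∈ Ge k wc S.β d ↔ _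
  constructor
  · intro h1
    have h2 := wrep_V.Ge_stab (inv_mem f.hg) h1
    rwa [← mulVec_mul, show (S.g0⁻¹ * f.g)⁻¹ * S.g0⁻¹ = f.g⁻¹ by group] at h2
  · intro h1
    have h2 := wrep_V.Ge_stab f.hg h1
    rwa [← mulVec_mul, mul_inv_cancel_right] at h2

theorem Frame.u_level (f : S.Frame) (t : K) : rho k (f.g⁻¹ * S.ψ (u t) * f.g) - 1 ∈ MGe k S.β S.nn := by
  have h1 := MGe_conj (inv_mem f.hg) (show rho k (S.g0⁻¹ * S.ψ (u t) * S.g0) - 1 ∈ MGe k S.β S.nn from S.u_level t)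
  rwa [mul_sub, mul_one, sub_mul, ← map_mul, ← map_mul, ← map_mul, mul_inv_cancel, map_one,
    show (S.g0⁻¹ * f.g)⁻¹ * (S.g0⁻¹ * S.ψ (u t) * S.g0) * (S.g0⁻¹ * f.g)⁻¹⁻¹ = f.g⁻¹ * S.ψ (u t) * f.g by group] at h1

theorem Frame.g_σ (f : S.Frame) : f.g⁻¹ * S.σ f.g ∈ Pl k S.β := by
  rw [show f.g⁻¹ * S.σ f.g = (S.g0⁻¹ * f.g)⁻¹ * (S.g0⁻¹ * S.σ S.g0) * S.σ (S.g0⁻¹ * f.g) by
    rw [map_mul, map_inv]; group]
  exact mul_mem (mul_mem (inv_mem f.hg) S.g0_σ) (emb_mem_Pl S.s f.hg)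

variable (S)

theorem σ_mem_P {y : Gh k} (hy : y ∈ S.P) : S.σ y ∈ S.P := by
  rw [S.mem_P, show S.g0⁻¹ * S.σ y * S.g0 = (S.g0⁻¹ * S.σ S.g0) * S.σ (S.g0⁻¹ * y * S.g0) * (S.g0⁻¹ * S.σ S.g0)⁻¹ by
    rw [map_mul, map_mul, map_inv]; group]
  exact mul_mem (mul_mem S.g0_σ (emb_mem_Pl S.s (S.mem_P.1 hy))) (inv_mem S.g0_σ)

theorem σ_mem_P' {y : Gh k} (hy : y ∈ S.P') : S.σ y ∈ S.P' := by
  have h1 := S.σ_mem_P (S.mem_P'.1 hy)
  rw [map_mul, map_mul, map_inv, S.k_σ_ψ] at h1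
  exact S.mem_P'.2 h1

theorem σ_mem_Ru {y : Gh k} (hy : y ∈ S.Ru) : S.σ y ∈ S.Ru := by
  rw [S.mem_Ru, show S.g0⁻¹ * S.σ y * S.g0 = (S.g0⁻¹ * S.σ S.g0) * S.σ (S.g0⁻¹ * y * S.g0) * (S.g0⁻¹ * S.σ S.g0)⁻¹ by
    rw [map_mul, map_mul, map_inv]; group]
  have h1 := S.mem_Ru.1 hy
  refine Ul_conj S.g0_σ ⟨emb_mem_Pl S.s h1.1, fun i j hij => h1.2 i j fun h0 => hij ?_⟩
  have h2 : rho k (S.σ (S.g0⁻¹ * y * S.g0)) = (rho k (S.g0⁻¹ * y * S.g0)).map S.s := rho_emb _ _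
  rw [Matrix.sub_apply, sub_eq_zero] at h0
  rw [Matrix.sub_apply, h2, map_apply, h0, one_apply, apply_ite S.s, map_one, map_zero, sub_self]

theorem Ru_conj {g y : Gh k} (hg : g ∈ S.P) (hy : y ∈ S.Ru) : g * y * g⁻¹ ∈ S.Ru := by
  have h1 := Ul_conj (S.mem_P.1 hg) (S.mem_Ru.1 hy)
  rw [S.mem_Ru]
  rwa [show S.g0⁻¹ * g * S.g0 * (S.g0⁻¹ * y * S.g0) * (S.g0⁻¹ * g * S.g0)⁻¹ = S.g0⁻¹ * (g * y * g⁻¹) * S.g0 by group] at h1

theorem isPGroup_Ru : IsPGroup p S.Ru :=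
  have := S.chark
  (isPGroup_Ul S.prime S.β).comap_of_injective _ (MulAut.conj S.g0⁻¹).injective

end Sit

end Cfsg.Agent.E7P
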