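import Cfsg.Agent.E7P.Frm.Weyl
import Cfsg.Agent.ChevalleyStructure.St.TabE7

/-!
# S5932: the filtration of the unipotent radical (helper32)

* `MGe K β d`, `MGt K β d` : matrices which raise the level by `≥ d`, `> d`;
* `Ud K β d`, `Ug K β d` : the groups generated by the root groups of level `≥ d`, `> d`; `Pl_levi`, `Ul_eq`;
* `leadu` : the leading term of an element of the unipotent radical; `exists_lead` : every leading term occurs.
-/

set_option autoImplicit false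
set_option maxRecDepth 100000

namespace Cfsg.Agent.E7P.Kf

open Cfsg Cfsg.Lie Matrix Module
open Cfsg.Agent.ChevalleyStructure
open Cfsg.Agent.H943.E7V.Block (D1 rho)
open Cfsg.Agent.R2.T1
open Cfsg.Agent.R2.PX (del)

universe u
variable {K : Type u} [Field K]

variable (K) in
/-- matrices of level `≥ d` -/
def MGe (β : E) (d : ℝ) : Submodule K (Matrix D1 D1 K) where
  carrier := {A | ∀ i j, A i j ≠ 0 → bf β (wv j) + d ≤ bf β (wv i)}
  zero_mem' := fun _ _ h => absurd rfl h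
  add_mem' := by
    intro x y hx hy i j hi
    by_cases h : x i j = 0
    · rw [Matrix.add_apply, h, zero_add] at hi
      exact hy i j hi
    · exact hx i j h
  smul_mem' := fun _ _ hx i j hi => hx i j (right_ne_zero_of_mul hi)

variable (K) in
/-- matrices of level `> d` -/
def MGt (β : E) (d : ℝ) : Submodule K (Matrix D1 D1 K) where
  carrier := {A | ∀ i j, A i j ≠ 0 → bf β (wv j) + d < bf β (wv i)}
  zero_mem' := fun _ _ h => absurd rfl h
  add_mem' := by
    intro x y hx hy i j hi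
    by_cases h : x i j = 0
    · rw [Matrix.add_apply, h, zero_add] at hi
      exact hy i j hi
    · exact hx i j h
  smul_mem' := fun _ _ hx i j hi => hx i j (right_ne_zero_of_mul hi)

variable {β : E} {d e : ℝ} {A B : Matrix D1 D1 K}

theorem mem_MGe : A ∈ MGe K β d ↔ ∀ i j, A i j ≠ 0 → bf β (wv j) + d ≤ bf β (wv i) := Iff.rfl

theorem mem_MGt : A ∈ MGt K β d ↔ ∀ i j, A i j ≠ 0 → bf β (wv j) + d < bf β (wv i) := Iff.rfl

theorem MGt_le : MGt K β d ≤ MGe K β d := fun _ h i j hij => (h i j hij).le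

theorem MGe_mono (h : e ≤ d) : MGe K β d ≤ MGe K β e := fun _ hA i j hij => by
  have := hA i j hij
  linarith

theorem MGt_mono (h : e ≤ d) : MGt K β d ≤ MGt K β e := fun _ hA i j hij => by
  have := hA i j hij
  linarith

theorem MGe_le_MGt (h : e < d) : MGe K β d ≤ MGt K β e := fun _ hA i j hij => by
  have := hA i j hij
  linarith

theorem MGe_mul (hA : A ∈ MGe K β d) (hB : B ∈ MGe K β e) : A * B ∈ MGe K β (d + e) := by
  intro i j hij
  obtain ⟨k, h1, h2⟩ := exists_mid' hij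
  have := hA _ _ h1
  have := hB _ _ h2
  linarith

theorem MGt_mul (hA : A ∈ MGt K β d) (hB : B ∈ MGe K β e) : A * B ∈ MGt K β (d + e) := by
  intro i j hij
  obtain ⟨k, h1, h2⟩ := exists_mid' hij
  have := hA _ _ h1
  have := hB _ _ h2
  linarith

theorem MGe_mul_MGt (hA : A ∈ MGe K β d) (hB : B ∈ MGt K β e) : A * B ∈ MGt K β (d + e) := by
  intro i j hij
  obtain ⟨k, h1, h2⟩ := exists_mid' hij
  have := hA _ _ h1
  have := hB _ _ h2
  linarith

theorem one_mem_MGe : (1 : Matrix D1 D1 K) ∈ MGe K β 0 := by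
  intro i j hij
  by_cases h : i = j
  · rw [h, add_zero]
  · exact absurd (one_apply_ne h) hij

theorem rho_mem_MGe {y : Gh K} (hy : y ∈ Pl K β) : rho K y ∈ MGe K β 0 := fun i j hij => by
  rw [add_zero]
  exact wrep_V.tri hy i j hij

theorem STri_iff : STri β A ↔ A ∈ MGt K β 0 := by
  simp only [STri, mem_MGt, add_zero]

theorem MGe_conj {y : Gh K} (hy : y ∈ Pl K β) (hA : A ∈ MGe K β d) : rho K y * A * rho K y⁻¹ ∈ MGe K β d := by
  have h := MGe_mul (MGe_mul (rho_mem_MGe hy) hA) (rho_mem_MGe (inv_mem hy))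
  rwa [zero_add, add_zero] at h

theorem MGt_conj {y : Gh K} (hy : y ∈ Pl K β) (hA : A ∈ MGt K β d) : rho K y * A * rho K y⁻¹ ∈ MGt K β d := by
  have h := MGt_mul (MGe_mul_MGt (rho_mem_MGe hy) hA) (rho_mem_MGe (inv_mem hy))
  rwa [zero_add, add_zero] at h

theorem eq_zero_of_MGt_neg (hA : A ∈ MGt K β d) (hA' : A ∈ MGe K (-β) (-d)) : A = 0 := by
  ext i j
  by_contra hij
  have h1 := hA i j hij
  have h2 := hA' i j hij
  rw [map_neg, LinearMap.neg_apply, LinearMap.neg_apply] at h2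
  linarith

theorem NM_mem {r : ℕ} (hr : r < 126) : NM K r ∈ MGe K β (bf β (rv r)) := fun i j hij => by
  rw [NM_ne hr hij, map_add]

theorem del_ne {z : chevE7.Idx → K} {i j : D1} (h : del K z i j ≠ 0) : ∃ k, z k ≠ 0 ∧ wv i = wv j + cv (ac k) := by
  rw [R2.PX.del_apply, Matrix.add_apply, Matrix.sum_apply, Matrix.sum_apply] at h
  by_cases h1 : ∑ s : Fin chevE7.nroots, (z (Sum.inr s) • NM K s) i j = 0
  · rw [h1, add_zero] at h
    obtain ⟨k, -, hk⟩ := Finset.exists_ne_zero_of_sum_ne_zero h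
    rw [Matrix.smul_apply, smul_eq_mul] at hk
    refine ⟨_, left_ne_zero_of_mul hk, ?_⟩
    have h2 : i = j := by
      by_contra hne
      exact right_ne_zero_of_mul hk (diagonal_apply_ne _ hne)
    rw [ac_inl, cv_zero, add_zero, h2]
  · obtain ⟨k, -, hk⟩ := Finset.exists_ne_zero_of_sum_ne_zero h1
    rw [Matrix.smul_apply, smul_eq_mul] at hk
    exact ⟨_, left_ne_zero_of_mul hk, NM_ne k.2 (right_ne_zero_of_mul hk)⟩

theorem exists_del_ne {z : chevE7.Idx → K} {r : Fin chevE7.nroots} (h : z (Sum.inr r) ≠ 0) :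
    ∃ i j, del K z i j ≠ 0 ∧ wv i = wv j + rv r := by
  obtain ⟨a, b, c, h1, h2⟩ := R2.PX.Tr.exists_entry r.2
  refine ⟨a, b, ?_, ?_⟩
  · rw [Mu.del_entry z r.2 h1]
    exact mul_ne_zero h (cast_ne h2)
  · rw [wv, wc_add r.2 h1, cv_add]; rfl

theorem del_mem_MGe {z : chevE7.Idx → K} (hz : z ∈ Ge K ac β d) : del K z ∈ MGe K β d := by
  intro i j hij
  obtain ⟨k, h1, h2⟩ := del_ne hij
  have := hz k h1
  rw [h2, map_add]
  linarith

theorem del_mem_MGt {z : chevE7.Idx → K} (hz : z ∈ Gt K ac β d) : del K z ∈ MGt K β d := by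
  intro i j hij
  obtain ⟨k, h1, h2⟩ := del_ne hij
  have := hz k h1
  rw [h2, map_add]
  linarith

/-- the toral part of an element with strictly triangular matrix vanishes -/
theorem inl_eq_zero {z : chevE7.Idx → K} (h : ∀ i, del K z i i = 0) (i : Fin chevE7.rank) : z (Sum.inl i) = 0 := by
  have h1 : del K (tv fun i => z (Sum.inl i)) = 0 := by
    ext a b
    by_contra hne
    obtain ⟨k, h2, h3⟩ := del_ne hne
    rcases k with k | k
    · rw [ac_inl, cv_zero, add_zero] at h3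
      obtain rfl := wv_inj h3
      apply hne
      have h4 : del K (z - tv fun i => z (Sum.inl i)) a a = 0 := by
        by_contra h5
        obtain ⟨k, h6, h7⟩ := del_ne h5
        rcases k with k | k
        · exact h6 (sub_self _)
        · exact rv_ne k.2 (left_eq_add.1 h7)
      rw [map_sub, Matrix.sub_apply, h, zero_sub, neg_eq_zero] at h4
      exact h4
    · exact h2 rfl
  exact congrFun (Mu.del_inj h1) (Sum.inl i)

theorem mem_Ge_of_del {z : chevE7.Idx → K} (h : del K z ∈ MGe K β d) : z ∈ Ge K ac β d := by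
  rintro (k | k) hk
  · rw [ac_inl, cv_zero, map_zero]
    by_contra hd
    exact hk (inl_eq_zero (fun i => by
      by_contra h1
      have := h i i h1
      linarith) k)
  · obtain ⟨i, j, h1, h2⟩ := exists_del_ne hk
    have h3 := h i j h1
    rw [h2, map_add] at h3
    exact le_of_add_le_add_left h3

theorem mem_Gt_of_del {z : chevE7.Idx → K} (h : del K z ∈ MGt K β d) : z ∈ Gt K ac β d := by
  rintro (k | k) hk
  · rw [ac_inl, cv_zero, map_zero]
    by_contra hd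
    exact hk (inl_eq_zero (fun i => by
      by_contra h1
      have := h i i h1
      linarith) k)
  · obtain ⟨i, j, h1, h2⟩ := exists_del_ne hk
    have h3 := h i j h1
    rw [h2, map_add] at h3
    exact lt_of_add_lt_add_left h3

/-! ### the commutator relations -/

theorem xs_comm {r s : ℕ} (hr : r < 126) (hs : s < 126) (hsn : s ≠ 125 - r) (t v : K) {T : Subgroup (Gh K)}
    (hT : ∀ c < 126, ∀ i j : ℕ, 0 < i → 0 < j → rc c = i • rc r + j • rc s → ∀ x, xs K c x ∈ T) :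
    (xs K s v)⁻¹ * (xs K r t)⁻¹ * xs K s v * xs K r t ∈ T := by
  by_cases hsr : s = r
  · rw [hsr, xs_inv, xs_inv, xs_mul, xs_mul, xs_mul, show -v + -t + v + t = 0 by ring, xs_zero]
    exact one_mem _
  have h := St.Rels.stGen_comm (D := chevE7) (K := K) hr hs hsr (by
    rw [show chevE7.neg r = 125 - r from neg7 hr]; exact hsn) t v
  refine (show (xs K s v)⁻¹ * (xs K r t)⁻¹ * xs K s v * xs K r t = _ from h) ▸ St.Rels.word_mem T ?_
  intro p hp
  obtain ⟨c, hc, rfl⟩ := List.mem_map.1 hp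
  obtain ⟨h1, h2, h3, h4⟩ := St.Functional.commTerms_spec St.TabE7.tabE7.toWf hr hs hc
  refine hT c.1 h1 _ _ h2 h3 (funext fun i => ?_) _
  have h5 := h4 _ (St.TabE7.tabE7.cartan_fun i i.2)
  simp only [Pi.add_apply, nsmul_eq_mul]
  exact h5

theorem bf_comb {r s c i j : ℕ} (h : rc c = i • rc r + j • rc s) : bf β (rv c) = i * bf β (rv r) + j * bf β (rv s) := by
  rw [rv, h, cv_add, cv_nsmul, cv_nsmul, map_add, map_smul, map_smul]
  rfl

variable (K) in
/-- the root groups of level `≥ d` -/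
def Ud (β : E) (d : ℝ) : Subgroup (Gh K) := GS K {r | r < 126 ∧ d ≤ bf β (rv r)}

variable (K) in
/-- the root groups of level `> d` -/
def Ug (β : E) (d : ℝ) : Subgroup (Gh K) := GS K {r | r < 126 ∧ d < bf β (rv r)}

theorem xs_mem_Ud {r : ℕ} (hr : r < 126) (h : d ≤ bf β (rv r)) (t : K) : xs K r t ∈ Ud K β d :=
  xs_mem_GS (show r ∈ {r | r < 126 ∧ d ≤ bf β (rv r)} from ⟨hr, h⟩) t

theorem xs_mem_Ug {r : ℕ} (hr : r < 126) (h : d < bf β (rv r)) (t : K) : xs K r t ∈ Ug K β d :=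
  xs_mem_GS (show r ∈ {r | r < 126 ∧ d < bf β (rv r)} from ⟨hr, h⟩) t

theorem Ug_le_Ud : Ug K β d ≤ Ud K β d := GS_le fun _ hr t => xs_mem_Ud hr.1 hr.2.le t

theorem Ud_le_Pl (hd : 0 ≤ d) : Ud K β d ≤ Pl K β := GS_le fun _ hr t => xs_mem_Pl hr.1 (hd.trans hr.2) t

theorem Ug_le_Ul (hd : 0 ≤ d) : Ug K β d ≤ Ul K β := GS_le fun _ hr t => xs_mem_Ul hr.1 (hd.trans_lt hr.2) t

theorem Ud_le_Ul (hd : 0 < d) : Ud K β d ≤ Ul K β := GS_le fun _ hr t => xs_mem_Ul hr.1 (hd.trans_le hr.2) t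

/-- upper sets of positive levels are normal in the parabolic subgroup -/
theorem Pl_conj_GS {Q : ℝ → Prop} (h0 : ∀ x, Q x → 0 < x) (hQ : ∀ x y, Q x → x ≤ y → Q y) {g : Gh K} (hg : g ∈ Pl K β) :
    ∀ y ∈ GS K {r | r < 126 ∧ Q (bf β (rv r))}, g⁻¹ * y * g ∈ GS K {r | r < 126 ∧ Q (bf β (rv r))} := by
  refine Pl_induction (P := fun g => ∀ y ∈ GS K {r | r < 126 ∧ Q (bf β (rv r))},
    g⁻¹ * y * g ∈ GS K {r | r < 126 ∧ Q (bf β (rv r))}) ?_ ?_ ?_ ?_ hg
  · intro y hy
    rwa [inv_one, one_mul, mul_one]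
  · intro a b _ _ ha hb y hy
    rw [show (a * b)⁻¹ * y * (a * b) = b⁻¹ * (a⁻¹ * y * a) * b by group]
    exact hb _ (ha _ hy)
  · intro r hr hr0 t y hy
    refine GS_induction (P := fun y => (xs K r t)⁻¹ * y * xs K r t ∈ GS K {r | r < 126 ∧ Q (bf β (rv r))}) ?_ ?_ ?_ hy
    · rw [mul_one, inv_mul_cancel]; exact one_mem _
    · intro x y _ _ hx hy
      rw [show (xs K r t)⁻¹ * (x * y) * xs K r t = (xs K r t)⁻¹ * x * xs K r t * ((xs K r t)⁻¹ * y * xs K r t) by group]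
      exact mul_mem hx hy
    · intro s hs v
      have h1 := h0 _ hs.2
      rw [show (xs K r t)⁻¹ * xs K s v * xs K r t = xs K s v * ((xs K s v)⁻¹ * (xs K r t)⁻¹ * xs K s v * xs K r t) by group]
      refine mul_mem (xs_mem_GS hs v) (xs_comm hr hs.1 ?_ t v fun c hc i j _ hj h x =>
        xs_mem_GS (show c ∈ {r | r < 126 ∧ Q (bf β (rv r))} from ⟨hc, hQ _ _ hs.2 ?_⟩) x)
      · rintro rfl
        rw [rv_neg hr, map_neg] at h1
        linarith
      · rw [bf_comb h]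
        have h2 : (1 : ℝ) ≤ j := by exact_mod_cast hj
        have h3 : 0 ≤ (i : ℝ) * bf β (rv r) := mul_nonneg (Nat.cast_nonneg i) hr0
        nlinarith
  · intro a y hy
    have h := Phi_conj_GS (fun r hr => hr.1) a⁻¹ hy
    rwa [map_inv, inv_inv] at h

theorem Pl_conj_Ud (hd : 0 < d) {g y : Gh K} (hg : g ∈ Pl K β) (hy : y ∈ Ud K β d) : g⁻¹ * y * g ∈ Ud K β d :=
  Pl_conj_GS (Q := fun x => d ≤ x) (fun _ h => hd.trans_le h) (fun _ _ h h' => h.trans h') hg y hy

theorem Pl_conj_Ug (hd : 0 ≤ d) {g y : Gh K} (hg : g ∈ Pl K β) (hy : y ∈ Ug K β d) : g⁻¹ * y * g ∈ Ug K β d :=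
  Pl_conj_GS (Q := fun x => d < x) (fun _ h => hd.trans_lt h) (fun _ _ h h' => h.trans_le h') hg y hy

/-- **the Levi decomposition** -/
theorem Pl_levi {y : Gh K} (hy : y ∈ Pl K β) : ∃ l ∈ Pl K β ⊓ Pl K (-β), ∃ x ∈ Ug K β 0, y = l * x := by
  refine Pl_induction (P := fun y => ∃ l ∈ Pl K β ⊓ Pl K (-β), ∃ x ∈ Ug K β 0, y = l * x) ?_ ?_ ?_ ?_ hy
  · exact ⟨1, one_mem _, 1, one_mem _, (mul_one _).symm⟩
  · rintro _ _ - - ⟨l, hl, x, hx, rfl⟩ ⟨l', hl', x', hx', rfl⟩
    exact ⟨l * l', mul_mem hl hl', _, mul_mem (Pl_conj_Ug le_rfl hl'.1 hx) hx', by group⟩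
  · intro r hr h0 t
    rcases h0.eq_or_lt with h | h
    · refine ⟨_, ⟨xs_mem_Pl hr h0 t, xs_mem_Pl hr ?_ t⟩, 1, one_mem _, (mul_one _).symm⟩
      rw [map_neg, LinearMap.neg_apply, ← h, neg_zero]
    · exact ⟨1, one_mem _, _, xs_mem_Ug hr h t, (one_mul _).symm⟩
  · intro a
    exact ⟨_, ⟨Phi_mem_Pl _ a, Phi_mem_Pl _ a⟩, 1, one_mem _, (mul_one _).symm⟩

theorem eq_one_of_Ul_Pl {y : Gh K} (hy : y ∈ Ul K β) (hy' : y ∈ Pl K (-β)) : y = 1 := by
  apply rho_injective
  rw [map_one, ← sub_eq_zero]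
  refine eq_zero_of_MGt_neg (STri_iff.1 hy.2) ?_
  rw [neg_zero]
  exact sub_mem (rho_mem_MGe hy') one_mem_MGe

theorem Ul_eq : Ul K β = Ug K β 0 := by
  refine le_antisymm (fun y hy => ?_) (Ug_le_Ul le_rfl)
  obtain ⟨l, hl, x, hx, e⟩ := Pl_levi hy.1
  have h1 : l = 1 := eq_one_of_Ul_Pl (by
    rw [show l = y * x⁻¹ by rw [e]; group]
    exact mul_mem hy (inv_mem (Ug_le_Ul le_rfl hx))) hl.2
  rwa [e, h1, one_mul]

theorem rho_mul_sub (x y : Gh K) :
    rho K (x * y) - 1 = (rho K x - 1) + (rho K y - 1) + (rho K x - 1) * (rho K y - 1) := by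
  rw [map_mul]; noncomm_ring

theorem Ud_MGe (hd : 0 ≤ d) {y : Gh K} (hy : y ∈ Ud K β d) : rho K y - 1 ∈ MGe K β d := by
  refine GS_induction (P := fun y => rho K y - 1 ∈ MGe K β d) ?_ ?_ ?_ hy
  · rw [map_one, sub_self]; exact zero_mem _
  · intro x y _ _ hx hy
    rw [rho_mul_sub]
    exact add_mem (add_mem hx hy) (MGe_mono (by linarith) (MGe_mul hx hy))
  · intro r hr t
    rw [rho_xs' hr.1, add_sub_cancel_left]
    exact Submodule.smul_mem _ _ (MGe_mono hr.2 (NM_mem hr.1))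

theorem Ug_MGt (hd : 0 ≤ d) {y : Gh K} (hy : y ∈ Ug K β d) : rho K y - 1 ∈ MGt K β d := by
  refine GS_induction (P := fun y => rho K y - 1 ∈ MGt K β d) ?_ ?_ ?_ hy
  · rw [map_one, sub_self]; exact zero_mem _
  · intro x y _ _ hx hy
    rw [rho_mul_sub]
    exact add_mem (add_mem hx hy) (MGt_mono (by linarith) (MGt_mul hx (MGt_le hy)))
  · intro r hr t
    rw [rho_xs' hr.1, add_sub_cancel_left]
    exact Submodule.smul_mem _ _ (MGe_le_MGt hr.2 (NM_mem hr.1))

variable (K) in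
/-- the vectors of level `d` -/
def Lv {I : Type*} (c : I → Fin 7 → ℤ) (β : E) (d : ℝ) : Submodule K (I → K) where
  carrier := {x | ∀ i, x i ≠ 0 → bf β (cv (c i)) = d}
  zero_mem' := fun _ h => absurd rfl h
  add_mem' := by
    intro x y hx hy i hi
    by_cases h : x i = 0
    · rw [Pi.add_apply, h, zero_add] at hi
      exact hy i hi
    · exact hx i h
  smul_mem' := fun _ _ hx i hi => hx i (right_ne_zero_of_mul hi)

theorem mem_Lv {I : Type*} {c : I → Fin 7 → ℤ} {x : I → K} : x ∈ Lv K c β d ↔ ∀ i, x i ≠ 0 → bf β (cv (c i)) = d := Iff.rfl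

theorem Lv_le_Ge {I : Type*} {c : I → Fin 7 → ℤ} : Lv K c β d ≤ Ge K c β d := fun _ h i hi => (h i hi).ge

theorem eq_zero_of_Lv_Gt {I : Type*} {c : I → Fin 7 → ℤ} {x : I → K} (h : x ∈ Lv K c β d) (h' : x ∈ Gt K c β d) :
    x = 0 := by
  funext i
  by_contra hi
  exact (h' i hi).ne' (h i hi)

theorem lead_mul (hd : 0 < d) {x y : Gh K} {z z' : chevE7.Idx → K} (hz : z ∈ Ge K ac β d) (hz' : z' ∈ Ge K ac β d)
    (hx : rho K x - 1 - del K z ∈ MGt K β d) (hy : rho K y - 1 - del K z' ∈ MGt K β d) :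
    rho K (x * y) - 1 - del K (z + z') ∈ MGt K β d := by
  have h1 : rho K x - 1 ∈ MGe K β d := by
    have := add_mem (MGt_le hx) (del_mem_MGe hz)
    rwa [sub_add_cancel] at this
  have h2 : rho K y - 1 ∈ MGe K β d := by
    have := add_mem (MGt_le hy) (del_mem_MGe hz')
    rwa [sub_add_cancel] at this
  rw [rho_mul_sub, map_add, show rho K x - 1 + (rho K y - 1) + (rho K x - 1) * (rho K y - 1) - (del K z + del K z') =
    (rho K x - 1 - del K z) + (rho K y - 1 - del K z') + (rho K x - 1) * (rho K y - 1) by abel]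
  exact add_mem (add_mem hx hy) (MGe_le_MGt (by linarith) (MGe_mul h1 h2))

theorem lead_xs {r : ℕ} (hr : r < 126) (t : K) :
    rho K (xs K r t) - 1 - del K (Pi.single (Sum.inr ⟨r, hr⟩) t) = 0 := by
  rw [rho_xs' hr, add_sub_cancel_left, show (Pi.single (Sum.inr ⟨r, hr⟩) t : chevE7.Idx → K) =
    t • Pi.single (Sum.inr ⟨r, hr⟩) 1 by rw [← Pi.single_smul, smul_eq_mul, mul_one], map_smul, R2.PX.del_inr, sub_self]

theorem single_mem_Lv {r : ℕ} (hr : r < 126) (t : K) :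
    (Pi.single (Sum.inr ⟨r, hr⟩) t : chevE7.Idx → K) ∈ Lv K ac β (bf β (rv r)) := by
  intro i hi
  have h : i = Sum.inr ⟨r, hr⟩ := by
    by_contra hne
    exact hi (Pi.single_eq_of_ne hne _)
  rw [h]; rfl

/-- the leading term and the kernel of the leading term -/
theorem Ud_lead (hd : 0 < d) {y : Gh K} (hy : y ∈ Ud K β d) :
    ∃ z ∈ Lv K ac β d, rho K y - 1 - del K z ∈ MGt K β d ∧ (z = 0 → y ∈ Ug K β d) := by
  classical
  let N : Subgroup (Ud K β d) := (Ug K β d).subgroupOf (Ud K β d)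
  have hN : N.Normal := ⟨fun n hn g => by
    have h := Pl_conj_Ug hd.le (inv_mem (Ud_le_Pl hd.le g.2)) hn
    rw [inv_inv] at h
    exact h⟩
  have hgen : ∀ {P : Ud K β d → Prop}, P 1 → (∀ a b, P a → P b → P (a * b)) →
      (∀ r (hr : r < 126) (h : d ≤ bf β (rv r)) t, P ⟨xs K r t, xs_mem_Ud hr h t⟩) → ∀ y, P y := by
    intro P h1 hm hx y
    obtain ⟨_, h⟩ := GS_induction (P := fun y => ∃ h : y ∈ Ud K β d, P ⟨y, h⟩) ⟨one_mem _, h1⟩
      (fun a b _ _ ⟨ha, ha'⟩ ⟨hb, hb'⟩ => ⟨mul_mem ha hb, hm _ _ ha' hb'⟩)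
      (fun r hr t => ⟨xs_mem_Ud hr.1 hr.2 t, hx r hr.1 hr.2 t⟩) y.2
    exact h
  let π := QuotientGroup.mk' N
  have hcomm : ∀ a b : Ud K β d, π a * π b = π b * π a := by
    intro a b
    refine hgen (P := fun a => π a * π b = π b * π a) (by rw [map_one, one_mul, mul_one]) (fun x y hx hy => by
      rw [map_mul, mul_assoc, hy, ← mul_assoc, hx, mul_assoc]) (fun r hr h t => ?_) a
    refine hgen (P := fun b => π ⟨xs K r t, xs_mem_Ud hr h t⟩ * π b = π b * π ⟨xs K r t, xs_mem_Ud hr h t⟩)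
      (by rw [map_one, one_mul, mul_one]) (fun x y hx hy => by
      rw [map_mul, ← mul_assoc, hx, mul_assoc, hy, mul_assoc]) (fun s hs h' v => ?_) b
    rw [← map_mul, ← map_mul, QuotientGroup.mk'_apply, QuotientGroup.mk'_apply, QuotientGroup.eq]
    show (xs K r t * xs K s v)⁻¹ * (xs K s v * xs K r t) ∈ Ug K β d
    rw [show (xs K r t * xs K s v)⁻¹ * (xs K s v * xs K r t) =
      (xs K s v)⁻¹ * (xs K r t)⁻¹ * xs K s v * xs K r t by group]
    refine xs_comm hr hs ?_ t v fun c hc i j hi hj e x => xs_mem_Ug hc ?_ x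
    · rintro rfl
      rw [rv_neg hr, map_neg] at h'
      linarith
    · rw [bf_comb e]
      have h2 : (1 : ℝ) ≤ j := by exact_mod_cast hj
      have h3 : (1 : ℝ) ≤ i := by exact_mod_cast hi
      nlinarith
  let _ : CommGroup (Ud K β d ⧸ N) := { (inferInstance : Group (Ud K β d ⧸ N)) with
    mul_comm := fun a b => by
      obtain ⟨a, rfl⟩ := QuotientGroup.mk'_surjective N a
      obtain ⟨b, rfl⟩ := QuotientGroup.mk'_surjective N b
      exact hcomm a b }
  let φ : Fin chevE7.nroots → K → Ud K β d ⧸ N := fun r t =>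
    if h : d ≤ bf β (rv r) then π ⟨xs K r t, xs_mem_Ud r.2 h t⟩ else 1
  have hφ : ∀ r s t, φ r (s + t) = φ r s * φ r t := by
    intro r s t
    by_cases h : d ≤ bf β (rv r)
    · simp only [φ, dif_pos h]
      rw [← map_mul]
      exact congrArg π (Subtype.ext (xs_mul r s t).symm)
    · simp only [φ, dif_neg h, mul_one]
  have hφ0 : ∀ r, φ r 0 = 1 := fun r => by
    have h := hφ r 0 0
    rw [add_zero] at h
    exact left_eq_mul.1 h
  have key : ∀ y : Ud K β d, ∃ z ∈ Lv K ac β d, rho K y - 1 - del K z ∈ MGt K β d ∧ π y = ∏ r, φ r (z (Sum.inr r)) := by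
    refine hgen ⟨0, zero_mem _, ?_, ?_⟩ ?_ ?_
    · rw [OneMemClass.coe_one, map_one, map_zero, sub_self, sub_self]; exact zero_mem _
    · rw [map_one]
      exact (Finset.prod_eq_one fun r _ => hφ0 r).symm
    · rintro a b ⟨z, hz, h1, h2⟩ ⟨z', hz', h1', h2'⟩
      refine ⟨z + z', add_mem hz hz', lead_mul hd (Lv_le_Ge hz) (Lv_le_Ge hz') h1 h1', ?_⟩
      rw [map_mul, h2, h2', ← Finset.prod_mul_distrib]
      exact Finset.prod_congr rfl fun r _ => (hφ r _ _).symm
    · intro r hr h t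
      rcases h.eq_or_lt with h1 | h1
      · refine ⟨Pi.single (Sum.inr ⟨r, hr⟩) t, by rw [h1]; exact single_mem_Lv hr t, ?_, ?_⟩
        · rw [lead_xs hr]; exact zero_mem _
        · rw [Finset.prod_eq_single (⟨r, hr⟩ : Fin chevE7.nroots) (fun s _ hs => by
            rw [Pi.single_eq_of_ne (fun e => hs (Sum.inr_injective e)), hφ0])
            (fun h => absurd (Finset.mem_univ _) h), Pi.single_eq_same]
          simp only [φ, dif_pos h]
      · refine ⟨0, zero_mem _, ?_, ?_⟩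
        · rw [map_zero, sub_zero]
          exact Ug_MGt hd.le (xs_mem_Ug hr h1 t)
        · exact ((QuotientGroup.eq_one_iff (N := N) (⟨xs K r t, xs_mem_Ud hr h t⟩ : Ud K β d)).2
            (xs_mem_Ug hr h1 t)).trans (Finset.prod_eq_one fun r _ => hφ0 r).symm
  obtain ⟨z, hz, h1, h2⟩ := key ⟨y, hy⟩
  refine ⟨z, hz, h1, fun h0 => ?_⟩
  rw [h0] at h2
  exact (QuotientGroup.eq_one_iff (N := N) (⟨y, hy⟩ : Ud K β d)).1 (h2.trans (Finset.prod_eq_one fun r _ => hφ0 r))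

theorem mem_Ug_of_Ud (hd : 0 < d) {y : Gh K} (hy : y ∈ Ud K β d) (h : rho K y - 1 ∈ MGt K β d) : y ∈ Ug K β d := by
  obtain ⟨z, hz, h1, h2⟩ := Ud_lead hd hy
  refine h2 (eq_zero_of_Lv_Gt hz (mem_Gt_of_del ?_))
  have h3 := sub_mem h h1
  rwa [sub_sub_cancel] at h3

theorem mem_Ud_of_MGe {y : Gh K} (hy : y ∈ Ul K β) (h : rho K y - 1 ∈ MGe K β d) : y ∈ Ud K β d := by
  classical
  have key : ∀ (n : ℕ) (e : ℝ), 0 ≤ e → ((Finset.range 126).filter fun r => e < bf β (rv r) ∧ bf β (rv r) < d).card ≤ n →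
      y ∈ Ug K β e → y ∈ Ud K β d := by
    intro n
    induction n with
    | zero =>
      intro e _ hc hy
      rw [Nat.le_zero, Finset.card_eq_zero, Finset.filter_eq_empty_iff] at hc
      refine GS_le (fun r hr t => xs_mem_Ud hr.1 ?_ t) hy
      by_contra hlt
      exact hc (Finset.mem_range.2 hr.1) ⟨hr.2, not_le.1 hlt⟩
    | succ n ih =>
      intro e he hc hy
      by_cases hne : ((Finset.range 126).filter fun r => e < bf β (rv r) ∧ bf β (rv r) < d).Nonempty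
      · obtain ⟨r, hr, hmin⟩ := Finset.exists_min_image _ (fun r => bf β (rv r)) hne
        obtain ⟨-, h1, h2⟩ := Finset.mem_filter.1 hr
        refine ih (bf β (rv r)) (he.trans h1.le) ?_ (mem_Ug_of_Ud (he.trans_lt h1) ?_ (MGe_le_MGt h2 h))
        · refine Nat.lt_succ_iff.1 (lt_of_lt_of_le (Finset.card_lt_card ⟨fun s hs => ?_, fun hsub => ?_⟩) hc)
          · rw [Finset.mem_filter] at hs ⊢
            exact ⟨hs.1, h1.trans hs.2.1, hs.2.2⟩
          · exact lt_irrefl _ (Finset.mem_filter.1 (hsub hr)).2.1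
        · refine GS_le (fun s hs t => xs_mem_Ud hs.1 ?_ t) hy
          by_cases h3 : bf β (rv s) < d
          · exact hmin s (Finset.mem_filter.2 ⟨Finset.mem_range.2 hs.1, hs.2, h3⟩)
          · exact h2.le.trans (not_lt.1 h3)
      · rw [Finset.not_nonempty_iff_eq_empty] at hne
        exact ih e he (by rw [hne]; exact Nat.zero_le _) hy
  exact key _ 0 le_rfl le_rfl (Ul_eq (K := K) (β := β) ▸ hy)

theorem mem_Ug_of_MGt (hd : 0 ≤ d) {y : Gh K} (hy : y ∈ Ul K β) (h : rho K y - 1 ∈ MGt K β d) : y ∈ Ug K β d := by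
  rcases hd.eq_or_lt with h0 | h0
  · rw [← h0, ← Ul_eq]; exact hy
  · exact mem_Ug_of_Ud h0 (mem_Ud_of_MGe hy (MGt_le h)) h

/-- **LEADU** -/
theorem leadu (hd : 0 < d) {y : Gh K} (hy : y ∈ Ul K β) (h : rho K y - 1 ∈ MGe K β d) :
    ∃ z ∈ Lv K ac β d, rho K y - 1 - del K z ∈ MGt K β d := by
  obtain ⟨z, hz, h1, -⟩ := Ud_lead hd (mem_Ud_of_MGe hy h)
  exact ⟨z, hz, h1⟩

/-- every leading term occurs -/
theorem exists_lead (hd : 0 < d) {z : chevE7.Idx → K} (hz : z ∈ Ge K ac β d) :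
    ∃ y ∈ Ud K β d, rho K y - 1 - del K z ∈ MGt K β d := by
  classical
  have key : ∀ s : Finset chevE7.Idx, ∃ y ∈ Ud K β d, (∑ i ∈ s, Pi.single i (z i) : chevE7.Idx → K) ∈ Ge K ac β d ∧
      rho K y - 1 - del K (∑ i ∈ s, Pi.single i (z i)) ∈ MGt K β d := by
    intro s
    induction s using Finset.induction_on with
    | empty =>
      refine ⟨1, one_mem _, ?_, ?_⟩
      · rw [Finset.sum_empty]; exact zero_mem _
      · rw [Finset.sum_empty, map_one, map_zero, sub_self, sub_self]; exact zero_mem _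
    | insert i s hi ih =>
      obtain ⟨y, hy, h1, h2⟩ := ih
      rw [Finset.sum_insert hi]
      by_cases h0 : z i = 0
      · rw [h0, Pi.single_zero, zero_add]
        exact ⟨y, hy, h1, h2⟩
      have h3 := hz i h0
      rcases i with i | ⟨r, hr⟩
      · rw [ac_inl, cv_zero, map_zero] at h3
        exact absurd hd (not_lt.2 h3)
      have h4 : (Pi.single (Sum.inr ⟨r, hr⟩) (z (Sum.inr ⟨r, hr⟩)) : chevE7.Idx → K) ∈ Ge K ac β d :=
        fun j hj => h3.trans (single_mem_Lv hr _ j hj).ge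
      exact ⟨_, mul_mem (xs_mem_Ud hr h3 _) hy, add_mem h4 h1,
        lead_mul hd h4 h1 (by rw [lead_xs hr]; exact zero_mem _) h2⟩
  obtain ⟨y, hy, -, h⟩ := key Finset.univ
  rw [Finset.univ_sum_single] at h
  exact ⟨y, hy, h⟩

/-- above the levels of the roots there is nothing -/
theorem eq_one_of_MGt {y : Gh K} (hd : 0 ≤ d) (hy : y ∈ Ul K β) (h : rho K y - 1 ∈ MGt K β d)
    (htop : ∀ r < 126, bf β (rv r) ≤ d) : y = 1 :=
  (GS_le (T := ⊥) (fun r hr _ => absurd hr.2 (not_lt.2 (htop r hr.1))) (mem_Ug_of_MGt hd hy h) :)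

end Cfsg.Agent.E7P.Kf
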