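import Cfsg.Agent.E7P.Iface

/-!
# S5932: the Weyl group and the parabolic subgroups (helper32)

* `wv_op`, `wv_inj`, `exists_dom`, `nL_conj_Pl`, `nL_conj_Phi`;
* `mem_Pl_of_tri` : triangular elements lie in the parabolic subgroup; `mem_Ul_of_stri`, `mem_T_of_diag`;
* `rat_le` : integral coweights with the same signs.
-/

set_option autoImplicit false
set_option maxRecDepth 100000

namespace Cfsg.Agent.E7P.Kf

open Cfsg Cfsg.Lie Matrix Module
open Cfsg.Agent.ChevalleyStructure Cfsg.Agent.ChevalleyStructure.StBasic Cfsg.Agent.H129.StCover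
open Cfsg.Agent.ChevalleyStructure.SteinbergKer Cfsg.Agent.ChevalleyStructure.SteinbergBruhat
open Cfsg.Agent.ChevalleyStructure.RootVec
open Cfsg.Agent.H943.E7V.Block (D1 rho)
open Cfsg.Agent.H944.E7Two (e7T)
open Cfsg.Agent.R2.T1

universe u
variable {K : Type u} [Field K]

theorem chk_op : ∀ s < 240, rt chevE8 s 7 = 1 → ∀ i < 7, chevE8.cartan i (st s).1 = - chevE8.cartan i s := by
  decide +kernel

theorem wc_op (a : D1) : wc (op a) = - wc a := by
  funext i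
  have h := chk_op (nn a) (nn_lt a) (rt_nn a) i i.2
  rw [st_eq] at h
  exact h

theorem wv_op (a : D1) : wv (op a) = - wv a := by rw [wv, wc_op, cv_neg, wv]

/-- a separating functional -/
def wkey (s : ℕ) : ℤ := ((List.range 7).map fun i => 3 ^ i * chevE8.cartan i s).sum

theorem chk_wkey : (((List.range 240).filter fun s => rt chevE8 s 7 = 1).map wkey).Nodup := by decide +kernel

theorem wc_inj {a b : D1} (h : wc a = wc b) : a = b := by
  refine nn_inj (List.inj_on_of_nodup_map chk_wkey ?_ ?_ ?_)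
  · exact List.mem_filter.2 ⟨List.mem_range.2 (nn_lt a), decide_eq_true (rt_nn a)⟩
  · exact List.mem_filter.2 ⟨List.mem_range.2 (nn_lt b), decide_eq_true (rt_nn b)⟩
  · rw [wkey, wkey, sum7, sum7]
    exact Finset.sum_congr rfl fun i _ => congrArg _ (congrFun h i)

theorem wv_inj {a b : D1} (h : wv a = wv b) : a = b := wc_inj (cv_inj h)

/-- a separating functional -/
def rkey (s : ℕ) : ℤ := ((List.range 7).map fun i => 5 ^ i * chevE7.cartan i s).sum

theorem chk_rkey : ((List.range 126).map rkey).Nodup := by decide +kernel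

theorem rc_inj {r s : ℕ} (hr : r < 126) (hs : s < 126) (h : rc r = rc s) : r = s := by
  refine List.inj_on_of_nodup_map chk_rkey (List.mem_range.2 hr) (List.mem_range.2 hs) ?_
  rw [rkey, rkey, sum7, sum7]
  exact Finset.sum_congr rfl fun i _ => congrArg _ (congrFun h i)

theorem rv_inj {r s : ℕ} (hr : r < 126) (hs : s < 126) (h : rv r = rv s) : r = s := rc_inj hr hs (cv_inj h)

theorem eq_of_bf_wv {x y : E} (h : ∀ s, bf x (wv s) = bf y (wv s)) : x = y := by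
  have h1 : bf x = bf y := ext_wv h
  funext i
  rw [← bf_al x, ← bf_al y, h1]

theorem wL_rev (l : List (Fin 7)) (x : E) : wL l.reverse (wL l x) = x := by
  induction l generalizing x with
  | nil => rfl
  | cons i l ih => rw [List.reverse_cons, wL_append, wL_cons, wL_cons, wL_nil, sr_sr, ih]

theorem wL_rev' (l : List (Fin 7)) (x : E) : wL l (wL l.reverse x) = x := by
  have h := wL_rev l.reverse x
  rwa [List.reverse_reverse] at h

theorem wL_ne {l : List (Fin 7)} {x : E} (h : x ≠ 0) : wL l x ≠ 0 := fun h0 => h (by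
  rw [← wL_rev l x, h0, map_zero])

theorem bf_wL (l : List (Fin 7)) (x y : E) : bf (wL l x) y = bf x (wL l.reverse y) := by
  rw [← wL_iso l x, wL_rev']

theorem exists_wL_rv (l : List (Fin 7)) {r : ℕ} (hr : r < 126) : ∃ s < 126, wL l (rv r) = rv s :=
  ⟨_, ((rd good7 ℚ).wW l ⟨r, hr⟩).2, wL_rv (K := ℚ) l ⟨r, hr⟩⟩

theorem exists_wL_wv (l : List (Fin 7)) (a : D1) : ∃ b, wL l (wv a) = wv b := by
  obtain ⟨b, hb⟩ := exists_ne (rho ℚ) (nL ℚ l) a
  exact ⟨b, (wrep_V.mon_nL l b a hb).symm⟩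

theorem finite_orbit (β : E) : (Set.range fun l => wL l β).Finite := by
  refine Set.Finite.of_finite_image (f := fun x s => bf x (wv s)) ?_ fun x _ y _ h => eq_of_bf_wv (congrFun h)
  refine (Set.finite_range fun (f : D1 → D1) s => bf β (wv (f s))).subset ?_
  rintro _ ⟨_, ⟨l, rfl⟩, rfl⟩
  choose f hf using exists_wL_wv l.reverse
  exact ⟨f, funext fun s => by
    show bf β (wv (f s)) = bf (wL l β) (wv s)
    rw [bf_wL, hf]⟩

theorem bf_rho1_al (i : Fin 7) : bf rho1 (al i) = 1 := bf_al _ _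

/-- every vector is conjugate to a dominant vector -/
theorem exists_dom (β : E) : ∃ l, Dom (wL l β) := by
  obtain ⟨_, ⟨l, rfl⟩, h⟩ := Set.exists_max_image _ (fun x => bf rho1 x) (finite_orbit β) ⟨_, [], rfl⟩
  refine ⟨l, fun i => ?_⟩
  have h1 := h _ ⟨i :: l, rfl⟩
  simp only [wL_cons, sr_apply, map_sub, map_smul, bf_rho1_al, smul_eq_mul, mul_one] at h1
  linarith

theorem Phi_mem_Hb (a : Fin chevE7.rank → Kˣ) : Phi K a ∈ Hb chevE7 K := by
  have h : a = ∏ i, Pi.mulSingle i (a i) := (Finset.univ_prod_mulSingle a).symm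
  have key : ∀ s : Finset (Fin chevE7.rank), Phi K (∏ i ∈ s, Pi.mulSingle i (a i)) ∈ Hb chevE7 K := by
    intro s
    induction s using Finset.induction_on with
    | empty => rw [Finset.prod_empty, map_one]; exact one_mem _
    | insert i s hi ih =>
      rw [Finset.prod_insert hi, map_mul, isPhi.single]
      exact mul_mem (Subgroup.subset_closure ⟨i, a i, i.2, (a i).ne_zero, rfl⟩) ih
  rw [h]
  exact key _

theorem nL_conj_Phi (l : List (Fin 7)) (a : Fin chevE7.rank → Kˣ) : ∃ b, nL K l * Phi K a * (nL K l)⁻¹ = Phi K b :=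
  Hb_le (axs.conj_nW_H l (Phi_mem_Hb a))

theorem nL_conj_Phi' (l : List (Fin 7)) (a : Fin chevE7.rank → Kˣ) : ∃ b, (nL K l)⁻¹ * Phi K a * nL K l = Phi K b :=
  Hb_le (axs.conj_nW_H' l (Phi_mem_Hb a))

theorem nL_conj_xs (l : List (Fin 7)) {r : ℕ} (hr : r < 126) (t : K) :
    ∃ s < 126, ∃ v, wL l (rv r) = rv s ∧ nL K l * xs K r t * (nL K l)⁻¹ = xs K s v := by
  obtain ⟨v, hv⟩ := (axs (K := K)).conj_nW l (r := ⟨r, hr⟩) (x := xs K r t) ⟨t, rfl⟩
  exact ⟨_, ((rd good7 K).wW l ⟨r, hr⟩).2, v, wL_rv l ⟨r, hr⟩, hv.symm⟩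

theorem nL_conj_xs' (l : List (Fin 7)) {r : ℕ} (hr : r < 126) (t : K) :
    ∃ s < 126, ∃ v, wL l (rv s) = rv r ∧ (nL K l)⁻¹ * xs K r t * nL K l = xs K s v := by
  obtain ⟨s, hs, h⟩ := exists_wL_rv l.reverse hr
  have h1 : wL l (rv s) = rv r := by rw [← h, wL_rev']
  have h2 : (((rd good7 K).wW l ⟨s, hs⟩ : Fin chevE7.nroots) : ℕ) = r :=
    rv_inj ((rd good7 K).wW l ⟨s, hs⟩).2 hr ((wL_rv l ⟨s, hs⟩).symm.trans h1)
  obtain ⟨v, hv⟩ := (axs (K := K)).conj_nW' l (r := ⟨s, hs⟩) (x := xs K r t) ⟨t, by rw [← h2]; rfl⟩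
  exact ⟨s, hs, v, h1, hv.symm⟩

theorem nL_conj_Pl (l : List (Fin 7)) {β : E} {y : Gh K} (hy : y ∈ Pl K β) :
    nL K l * y * (nL K l)⁻¹ ∈ Pl K (wL l β) := by
  refine Pl_induction (P := fun y => nL K l * y * (nL K l)⁻¹ ∈ Pl K (wL l β)) ?_ ?_ ?_ ?_ hy
  · rw [mul_one, mul_inv_cancel]; exact one_mem _
  · intro x y _ _ hx hy
    have e : nL K l * (x * y) * (nL K l)⁻¹ = nL K l * x * (nL K l)⁻¹ * (nL K l * y * (nL K l)⁻¹) := by group
    rw [e]; exact mul_mem hx hy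
  · intro r hr h0 t
    obtain ⟨s, hs, v, h1, h2⟩ := nL_conj_xs l hr t
    rw [h2]
    exact xs_mem_Pl hs (by rw [← h1, wL_iso]; exact h0) v
  · intro a
    obtain ⟨b, hb⟩ := nL_conj_Phi l a
    rw [hb]; exact Phi_mem_Pl _ b

theorem nL_conj_Pl' (l : List (Fin 7)) {β : E} {y : Gh K} (hy : y ∈ Pl K (wL l β)) :
    (nL K l)⁻¹ * y * nL K l ∈ Pl K β := by
  refine Pl_induction (P := fun y => (nL K l)⁻¹ * y * nL K l ∈ Pl K β) ?_ ?_ ?_ ?_ hy
  · rw [mul_one, inv_mul_cancel]; exact one_mem _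
  · intro x y _ _ hx hy
    have e : (nL K l)⁻¹ * (x * y) * nL K l = (nL K l)⁻¹ * x * nL K l * ((nL K l)⁻¹ * y * nL K l) := by group
    rw [e]; exact mul_mem hx hy
  · intro r hr h0 t
    obtain ⟨s, hs, v, h1, h2⟩ := nL_conj_xs' l hr t
    rw [h2]
    exact xs_mem_Pl hs (by rw [← h1, wL_iso] at h0; exact h0) v
  · intro a
    obtain ⟨b, hb⟩ := nL_conj_Phi' l a
    rw [hb]; exact Phi_mem_Pl _ b

theorem nL_conj_Pl_iff (l : List (Fin 7)) {β : E} {y : Gh K} :
    (nL K l)⁻¹ * y * nL K l ∈ Pl K β ↔ y ∈ Pl K (wL l β) := by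
  refine ⟨fun h => ?_, nL_conj_Pl' l⟩
  have h1 := nL_conj_Pl l h
  rwa [show nL K l * ((nL K l)⁻¹ * y * nL K l) * (nL K l)⁻¹ = y by group] at h1

section
variable {I : Type*} [Fintype I] [DecidableEq I] {c : I → Fin 7 → ℤ} {R : Gh K →* Matrix I I K}

theorem WRep.mon_nL_inv [Infinite K] (h : WRep c R) (l : List (Fin 7)) : Mon c R (nL K l)⁻¹ (wL l.reverse) := by
  intro i j hij
  have h1 := h.dual.mon_nL l j i (by rw [dualR_apply, transpose_apply]; exact hij)
  rw [cv_neg, cv_neg, map_neg, _root_.neg_inj] at h1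
  rw [h1, wL_rev]

/-- the entries of a conjugate by a monomial element -/
theorem WRep.conj_nL [Infinite K] (h : WRep c R) (l : List (Fin 7)) {A : Matrix I I K} {i j : I}
    (hij : (R (nL K l) * A * R (nL K l)⁻¹) i j ≠ 0) :
    ∃ i' j', A i' j' ≠ 0 ∧ cv (c i) = wL l (cv (c i')) ∧ cv (c j) = wL l (cv (c j')) := by
  obtain ⟨j', h1, h2⟩ := exists_mid' hij
  obtain ⟨i', h3, h4⟩ := exists_mid' h1
  exact ⟨i', j', h4, h.mon_nL l _ _ h3, by rw [h.mon_nL_inv l _ _ h2, wL_rev']⟩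

end

theorem mem_Pl_of_tri_dom [Infinite K] {β : E} (hβ : Dom β) {y : Gh K}
    (h : ∀ i j, rho K y i j ≠ 0 → bf β (wv j) ≤ bf β (wv i)) : y ∈ Pl K β := by
  obtain ⟨b, b', l, hb, hb', e⟩ := bruhat y
  have h1 : ∀ i j, rho K (nL K l) i j ≠ 0 → bf β (wv j) ≤ bf β (wv i) := by
    intro i j hij
    rw [show nL K l = b⁻¹ * y * b'⁻¹ by rw [e]; group] at hij
    obtain ⟨j', h1, h2⟩ := exists_mid hij
    obtain ⟨i', h3, h4⟩ := exists_mid h1
    exact ((wrep_V.tri (inv_mem (hb' β hβ)) _ _ h2).trans (h _ _ h4)).trans (wrep_V.tri (inv_mem (hb β hβ)) _ _ h3)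
  have h2 : ∀ j, bf β (wv j) ≤ bf (wL l.reverse β) (wv j) := by
    intro j
    obtain ⟨i, hi⟩ := exists_ne (rho K) (nL K l) j
    rw [bf_wL, List.reverse_reverse]
    have h3 : wv i = wL l (wv j) := wrep_V.mon_nL l i j hi
    rw [← h3]
    exact h1 i j hi
  have h3 : β = wL l.reverse β := eq_of_bf_wv fun s => le_antisymm (h2 s) (by
    have h4 := h2 (op s)
    rw [wv_op, map_neg, map_neg] at h4
    exact neg_le_neg_iff.1 h4)
  have h4 : wL l β = β := by
    conv_lhs => rw [h3]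
    exact wL_rev' l β
  rw [e]
  exact mul_mem (mul_mem (hb β hβ) (nL_mem hβ _ l le_rfl h4)) (hb' β hβ)

/-- **triangular elements lie in the parabolic subgroup** -/
theorem mem_Pl_of_tri [Infinite K] {β : E} {y : Gh K} (h : ∀ i j, rho K y i j ≠ 0 → bf β (wv j) ≤ bf β (wv i)) :
    y ∈ Pl K β := by
  obtain ⟨l, hl⟩ := exists_dom β
  have h1 : nL K l * y * (nL K l)⁻¹ ∈ Pl K (wL l β) := mem_Pl_of_tri_dom hl fun i j hij => by
    rw [map_mul, map_mul] at hij
    obtain ⟨i', j', h1, h2, h3⟩ := wrep_V.conj_nL l hij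
    rw [wv, wv, h2, h3, wL_iso, wL_iso]
    exact h i' j' h1
  have h2 := nL_conj_Pl' l h1
  rwa [show (nL K l)⁻¹ * (nL K l * y * (nL K l)⁻¹) * nL K l = y by group] at h2

theorem mem_Ul_of_stri [Infinite K] {β : E} {y : Gh K} (h : STri β (rho K y - 1)) : y ∈ Ul K β := by
  refine ⟨mem_Pl_of_tri fun i j hij => ?_, h⟩
  by_cases e : i = j
  · rw [e]
  · exact (h i j (by rw [Matrix.sub_apply, one_apply_ne e, sub_zero]; exact hij)).le

theorem nL_conj_Ul [Infinite K] (l : List (Fin 7)) {β : E} {y : Gh K} (hy : y ∈ Ul K β) :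
    nL K l * y * (nL K l)⁻¹ ∈ Ul K (wL l β) := by
  refine ⟨nL_conj_Pl l hy.1, fun i j hij => ?_⟩
  have e : rho K (nL K l * y * (nL K l)⁻¹) - 1 = rho K (nL K l) * (rho K y - 1) * rho K (nL K l)⁻¹ := by
    rw [mul_sub, mul_one, sub_mul, ← map_mul, ← map_mul, ← map_mul, mul_inv_cancel, map_one]
  rw [e] at hij
  obtain ⟨i', j', h1, h2, h3⟩ := wrep_V.conj_nL l hij
  rw [wv, wv, h2, h3, wL_iso, wL_iso]
  exact hy.2 i' j' h1

theorem dom_rho1 : Dom rho1 := fun _ => zero_le_one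

theorem rho1_ne {r : ℕ} (hr : r < 126) : bf rho1 (rv r) ≠ 0 := by
  by_cases h : 63 ≤ r
  · exact (rho1_pos hr ((chk_pos r hr).1.1 h)).ne'
  · have h1 := rho1_pos (r := 125 - r) (by omega) ((chk_pos _ (by omega)).1.1 (by omega))
    rw [rv_neg hr, map_neg] at h1
    exact (neg_pos.1 h1).ne

/-- the Borel subgroup -/
theorem Pl_rho1 {y : Gh K} (hy : y ∈ Pl K rho1) : ∃ x ∈ Ul K rho1, ∃ a, y = x * Phi K a := by
  obtain ⟨x, hx, a, e⟩ := Pl_decomp hy
  exact ⟨x, GS_le (fun r hr t => xs_mem_Ul hr.1 (hr.2.lt_of_ne (rho1_ne hr.1).symm) t) hx, a, e⟩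

theorem Pl_rho1_le {β : E} (hβ : Dom β) : Pl K rho1 ≤ Pl K β :=
  Pl_le_of_supp dom_rho1 hβ fun _ h => absurd h one_ne_zero

/-- **diagonal elements lie in the torus** -/
theorem mem_T_of_diag [Infinite K] {y : Gh K} (h : ∀ i j, rho K y i j ≠ 0 → i = j) : ∃ a, y = Phi K a := by
  obtain ⟨x, hx, a, e⟩ := Pl_rho1 (mem_Pl_of_tri (y := y) fun i j hij => by rw [h i j hij])
  refine ⟨a, ?_⟩
  have h1 : x = 1 := by
    apply rho_injective
    rw [map_one, ← sub_eq_zero]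
    ext i j
    by_contra hne
    have h2 := hx.2 i j hne
    by_cases hij : i = j
    · rw [hij] at h2
      exact lt_irrefl _ h2
    · rw [Matrix.zero_apply, Matrix.sub_apply, one_apply_ne hij, sub_zero,
        show x = y * (Phi K a)⁻¹ by rw [e]; group, ← map_inv] at hne
      obtain ⟨k, h3, h4⟩ := exists_mid hne
      exact hij ((h _ _ h3).trans (wrep_V.eq_of_Phi h4))
  rw [e, h1, one_mul]

/-! ### rational approximation -/

theorem exists_rat {ι : Type*} [Finite ι] (c : ι → Fin 7 → ℤ) (x : Fin 7 → ℝ) : ∃ y : Fin 7 → ℚ, ∀ i,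
    (∑ j, (c i j : ℝ) * x j = 0 → ∑ j, (c i j : ℚ) * y j = 0) ∧
      (0 < ∑ j, (c i j : ℝ) * x j → 0 < ∑ j, (c i j : ℚ) * y j) := by
  let W : Submodule ℚ ℝ := Submodule.span ℚ (Set.range x)
  have : FiniteDimensional ℚ W := FiniteDimensional.span_of_finite ℚ (Set.finite_range x)
  let b := Module.finBasis ℚ W
  let x' : Fin 7 → W := fun j => ⟨x j, Submodule.subset_span ⟨j, rfl⟩⟩
  let v : ι → W := fun i => ∑ j, (c i j : ℚ) • x' j
  have hv : ∀ i, ((v i : W) : ℝ) = ∑ j, (c i j : ℝ) * x j := fun i => by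
    simp only [v, x', Submodule.coe_sum, Submodule.coe_smul, Rat.smul_def, Rat.cast_intCast]
  let f : ι → (Fin (finrank ℚ W) → ℝ) → ℝ := fun i t => ∑ k, (b.repr (v i) k : ℝ) * t k
  have hf : ∀ i, f i (fun k => b k) = v i := fun i => by
    conv_rhs => rw [← b.sum_repr (v i)]
    simp only [f, Submodule.coe_sum, Submodule.coe_smul, Rat.smul_def]
  have hopen : IsOpen (⋂ i, {t | 0 < ((v i : W) : ℝ) → 0 < f i t}) := by
    refine isOpen_iInter_of_finite fun i => ?_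
    by_cases h : 0 < ((v i : W) : ℝ)
    · simp only [h, forall_const]
      exact isOpen_lt continuous_const (by fun_prop)
    · simp only [h, false_imp_iff, Set.ofPred_true]
      exact isOpen_univ
  have hd : DenseRange (Pi.map fun (_ : Fin (finrank ℚ W)) => ((↑) : ℚ → ℝ)) :=
    DenseRange.piMap fun _ => Rat.denseRange_cast
  obtain ⟨q, hq⟩ := hd.exists_mem_open hopen ⟨fun k => b k, Set.mem_iInter.2 fun i h => by rw [hf]; exact h⟩
  have key : ∀ i, ∑ j, (c i j : ℚ) * ∑ k, b.repr (x' j) k * q k = ∑ k, b.repr (v i) k * q k := by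
    intro i
    simp only [v, map_sum, map_smul, Finsupp.coe_finsetSum, Finset.sum_apply, Finsupp.smul_apply, smul_eq_mul,
      Finset.mul_sum, Finset.sum_mul, mul_assoc]
    exact Finset.sum_comm
  refine ⟨fun j => ∑ k, b.repr (x' j) k * q k, fun i => ⟨fun h => ?_, fun h => ?_⟩⟩
  · have h1 : v i = 0 := Subtype.ext (by rw [hv, h]; rfl)
    rw [key, h1]
    simp
  · have h1 : 0 < f i _ := Set.mem_iInter.1 hq i (by rw [hv]; exact h)
    rw [key]
    have h2 : f i (Pi.map (fun _ => ((↑) : ℚ → ℝ)) q) = ((∑ k, b.repr (v i) k * q k : ℚ) : ℝ) := by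
      simp [f]
    rw [h2] at h1
    exact_mod_cast h1

theorem bf_cv_eq (β : E) (c : Fin 7 → ℤ) : bf β (cv c) = ∑ j, (c j : ℝ) * bf β (Pi.single j 1) := by
  have h : cv c = ∑ j, (c j : ℝ) • (Pi.single j 1 : E) := pi_eq_sum_univ' (cv c)
  rw [h, map_sum]
  simp only [map_smul, smul_eq_mul]

/-- **integral coweights with the same signs** -/
theorem exists_int {ι : Type*} [Finite ι] (c : ι → Fin 7 → ℤ) (β : E) : ∃ m : Fin 7 → ℤ, ∀ i,
    (bf β (cv (c i)) = 0 → bf (lE m) (cv (c i)) = 0) ∧ (0 < bf β (cv (c i)) → 0 < bf (lE m) (cv (c i))) := by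
  obtain ⟨y, hy⟩ := exists_rat c fun j => bf β (Pi.single j 1)
  obtain ⟨d, hd⟩ := IsLocalization.exist_integer_multiples_of_finite (nonZeroDivisors ℤ) y
  choose m hm using hd
  have hd0 : (d : ℤ) ≠ 0 := nonZeroDivisors.coe_ne_zero d
  have key : ∀ i, ((∑ j, c i j * (d * m j) : ℤ) : ℚ) = ((d : ℤ) : ℚ) ^ 2 * ∑ j, (c i j : ℚ) * y j := by
    intro i
    push_cast
    rw [Finset.mul_sum]
    refine Finset.sum_congr rfl fun j _ => ?_
    have h1 : ((m j : ℤ) : ℚ) = ((d : ℤ) : ℚ) * y j := by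
      have h2 := hm j
      rwa [eq_intCast, zsmul_eq_mul] at h2
    rw [h1]; ring
  refine ⟨fun j => d * m j, fun i => ⟨fun h => ?_, fun h => ?_⟩⟩
  · rw [bf_cv_eq] at h
    have h1 := key i
    rw [(hy i).1 h, mul_zero] at h1
    rw [bf_lE]
    exact_mod_cast h1
  · rw [bf_cv_eq] at h
    have h1 : (0 : ℚ) < ((∑ j, c i j * (d * m j) : ℤ) : ℚ) := by
      rw [key]
      exact mul_pos (by positivity) ((hy i).2 h)
    rw [bf_lE]
    exact_mod_cast h1

/-- **RAT** -/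
theorem rat_le {ι : Type*} [Finite ι] (c : ι → Fin 7 → ℤ) (β : E) : ∃ m : Fin 7 → ℤ, ∀ i j,
    bf (lE m) (cv (c i)) ≤ bf (lE m) (cv (c j)) ↔ bf β (cv (c i)) ≤ bf β (cv (c j)) := by
  obtain ⟨m, hm⟩ := exists_int (fun x : ι × ι => c x.1 - c x.2) β
  refine ⟨m, fun i j => ⟨fun h => ?_, fun h => ?_⟩⟩
  · by_contra hlt
    have h1 := (hm (i, j)).2
    simp only [cv_sub, map_sub, sub_pos] at h1
    exact absurd (h1 (not_le.1 hlt)) (not_lt.2 h)
  · have h1 := hm (j, i)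
    simp only [cv_sub, map_sub, sub_pos, sub_eq_zero] at h1
    rcases h.eq_or_lt with h2 | h2
    · exact (h1.1 h2.symm).ge
    · exact (h1.2 h2).le

end Cfsg.Agent.E7P.Kf
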